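/-
Project TO: the symplectic groups.
-/
import Cfsg.Agent.TOr.Defs3
import Cfsg.Agent.TOr.Rep
import Cfsg.Agent.TOr.Small
import Cfsg.Agent.Cls.OrthOddEven
import Cfsg.Agent.Cls.OrthIsoGlue

set_option autoImplicit false

namespace CL.TOr

open Module QuadraticMap CL.Cls

universe u

variable {F : Type u} [Field F] [CharP F 2] {m : ℕ}

/-- A non-degenerate form with `qfOdd` as a hyperplane. -/
noncomputable def finsQ (m : ℕ) (F : Type u) [Field F] : QuadraticForm F ((Unit ⊕ (Fin m ⊕ Fin m) → F) × F) :=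
  (qfOdd m F).comp (LinearMap.fst F _ _) +
    linMulLin (LinearMap.snd F _ _) ((LinearMap.proj (Sum.inl ())).comp (LinearMap.fst F _ _))

omit [CharP F 2] in
theorem finsQ_apply (x : (Unit ⊕ (Fin m ⊕ Fin m) → F) × F) :
    finsQ m F x = qfOdd m F x.1 + x.2 * x.1 (.inl ()) := rfl

omit [CharP F 2] in
theorem finsQ_polar (x y : (Unit ⊕ (Fin m ⊕ Fin m) → F) × F) :
    polar (finsQ m F) x y = polar (qfOdd m F) x.1 y.1 + (x.2 * y.1 (.inl ()) + y.2 * x.1 (.inl ())) := by
  simp only [polar, finsQ_apply, Prod.fst_add, Prod.snd_add, Pi.add_apply]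
  ring

theorem fins_rad (y : Unit ⊕ (Fin m ⊕ Fin m) → F) : polar (qfOdd m F) y (Pi.single (.inl ()) 1) = 0 := by
  simp [polar_qfOdd, (hyp_two_eq : (2 : F) = 0)]

theorem fins_eq {x : Unit ⊕ (Fin m ⊕ Fin m) → F} (h : ∀ y, polar (qfOdd m F) x y = 0) (i : Fin m ⊕ Fin m) :
    x (.inr i) = 0 := by
  classical
  rcases i with i | i
  · simpa [polar_qfOdd, Pi.single_apply] using h (Pi.single (.inr (.inr i)) 1)
  · simpa [polar_qfOdd, Pi.single_apply] using h (Pi.single (.inr (.inl i)) 1)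

theorem finsQ_nondeg : (polarBilin (finsQ m F)).Nondegenerate := by
  rw [nondeg_iff]
  intro x hx
  have h1 : x.1 (.inl ()) = 0 := by simpa [finsQ_polar] using hx (0, 1)
  have h2 : x.2 = 0 := by simpa [finsQ_polar, fins_rad] using hx (Pi.single (.inl ()) 1, 0)
  have h3 : ∀ y, polar (qfOdd m F) x.1 y = 0 := fun y => by simpa [finsQ_polar, h2] using hx (y, 0)
  refine Prod.ext (funext ?_) h2
  rintro (⟨⟩ | i)
  · exact h1
  · exact fins_eq h3 i

theorem fins_w (y : (Unit ⊕ (Fin m ⊕ Fin m) → F) × F) : polar (finsQ m F) y (Pi.single (.inl ()) 1, 0) = y.2 := by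
  simp [finsQ_polar, fins_rad]

theorem fins_snd (g : KO (finsQ m F) (Pi.single (.inl ()) 1, 0) 0) (x : Unit ⊕ (Fin m ⊕ Fin m) → F) :
    g.1 (x, 0) = ((g.1 (x, 0)).1, 0) := by
  refine Prod.ext rfl ?_
  have : polar (finsQ m F) (g.1 (x, 0)) (g.1 (Pi.single (.inl ()) 1, 0)) = _ :=
    OG.polar_app (⟨g.1, g.2.1⟩ : OG (finsQ m F)) (x, 0) (Pi.single (.inl ()) 1, 0)
  rw [g.2.2.1, fins_w, fins_w] at this
  exact this

/-- Restriction to the hyperplane. -/
noncomputable def finsRes : KO (finsQ m F) (Pi.single (.inl ()) 1, 0) 0 →* OG (qfOdd m F) :=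
  OG.ofRep _
    { toFun := fun g => (LinearMap.fst F _ _).comp (g.1.toLinearMap.comp (LinearMap.inl F _ _))
      map_one' := rfl
      map_mul' := fun g h => LinearMap.ext fun x => by
        change (g.1 (h.1 (x, 0))).1 = (g.1 ((h.1 (x, 0)).1, 0)).1
        rw [← fins_snd] }
    fun g x => by
      change qfOdd m F (g.1 (x, 0)).1 = _
      have := g.2.1 (x, 0)
      rw [fins_snd, finsQ_apply, finsQ_apply] at this
      simpa using this

theorem finsRes_surj : Function.Surjective (finsRes (F := F) (m := m)) := fun h => by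
  let X : Submodule F ((Unit ⊕ (Fin m ⊕ Fin m) → F) × F) := LinearMap.ker (LinearMap.snd F _ _)
  have hX : ∀ x : X, x.1 = (x.1.1, 0) := fun x => Prod.ext rfl x.2
  obtain ⟨g, -, g2, g3⟩ := (isWittForm_quad (finsQ m F) (nondeg_iff.1 finsQ_nondeg)).exists_isometry_extend X
    ((LinearMap.inl F _ _).comp (h.1.toLinearMap.comp ((LinearMap.fst F _ _).comp X.subtype)))
    (fun x y hxy => Subtype.ext (by rw [hX x, hX y, show x.1.1 = y.1.1 from h.1.injective (congrArg Prod.fst hxy)]))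
    (fun x y => by
      change polar _ (h.1 x.1.1, 0) (h.1 y.1.1, 0) = polar _ x.1 y.1
      rw [hX x, hX y]; simp [finsQ_polar, OG.polar_app])
    (fun x => by
      change finsQ m F (h.1 x.1.1, 0) = _
      rw [hX x]; simp [finsQ_apply, OG.map_app])
  have g4 : ∀ x, g (x, 0) = (h.1 x, 0) := fun x => g3 ⟨(x, 0), rfl⟩
  have he : h.1 (Pi.single (.inl ()) 1) = Pi.single (.inl ()) 1 := by
    have h1 : ∀ i, h.1 (Pi.single (.inl ()) 1) (.inr i) = 0 := fins_eq fun y => by
      rw [OG.polar_app_left, polar_comm, fins_rad]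
    have h2 := OG.map_app h (Pi.single (.inl ()) 1)
    simp only [qfOdd_apply, h1] at h2
    have h3 : h.1 (Pi.single (.inl ()) 1) (.inl ()) = 1 := by
      rcases sq_eq_one_iff.1 (show h.1 (Pi.single (.inl ()) 1) (.inl ()) ^ 2 = 1 by simpa using h2) with h | h
      · exact h
      · rw [h, CharTwo.neg_eq]
    ext (⟨⟩ | i)
    · simpa using h3
    · simpa using h1 i
  refine ⟨⟨g, g2, by rw [g4, he], 0, by simp⟩, OG.ext' fun x => ?_⟩
  change (g (x, 0)).1 = _
  rw [g4]

theorem s4940_of (h : OAll.{u}) (F : Type u) [Field F] [Fintype F] [CharP F 2] (n : ℕ)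
    (χ : Cfsg.IrrCharacter ↥(Matrix.symplecticGroup (Fin n) F)) :
    ∑ᶠ g : ↥(Matrix.symplecticGroup (Fin n) F), (χ : ↥(Matrix.symplecticGroup (Fin n) F) → ℂ) (g * g) =
      (Nat.card ↥(Matrix.symplecticGroup (Fin n) F) : ℂ) := by
  obtain ⟨e⟩ : Nonempty (OG (qfOdd n F) ≃* Matrix.symplecticGroup (Fin n) F) := nonempty_OG_qfOdd_equiv_sp
  have h1 := h F _ (finsQ n F) finsQ_nondeg (Pi.single (.inl ()) 1, 0) 0 (Or.inr (by simp [finsQ_apply, qfOdd_apply]))
  have h2 : TO (Matrix.symplecticGroup (Fin n) F) (MonoidHom.id _) :=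
    h1.of_surj (e.toMonoidHom.comp finsRes) (e.surjective.comp finsRes_surj) fun _ => rfl
  have h3 := h2.indicator χ.2
  rw [inv_mul_eq_one₀ CL.Char.natCard_ne_zero] at h3
  exact h3.symm

end CL.TOr
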