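/-
Project TO: the final step for the orthogonal groups and their commutator subgroups.
-/
import Cfsg.Agent.TOr.Defs3
import Cfsg.Agent.TOr.Rep
import Cfsg.Agent.TOr.Small
import Cfsg.Agent.Char.Clifford

set_option autoImplicit false

namespace CL.TOr

open Module Cfsg CL.Char

universe u

/-- All Frobenius–Schur indicators are one. -/
def finO_All (G : Type*) [Group G] : Prop :=
  ∀ χ : G → ℂ, IsIrrCharacter G χ → (Nat.card G : ℂ)⁻¹ * ∑ᶠ g : G, χ (g * g) = 1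

theorem finO_transfer {G G' : Type*} [Group G] [Group G'] (e : G ≃* G') (h : finO_All G') : finO_All G :=
  fun χ hχ => by
    rw [← h _ (hχ.comp_mulEquiv e.symm), Nat.card_congr e.toEquiv,
      ← finsum_comp_equiv e.toEquiv (f := fun g => χ (e.symm (g * g)))]
    simp

theorem finO_index_two {G : Type*} [Group G] [Finite G] (N : Subgroup G) (hN : N.index = 2) (h : finO_All G)
    (hr : ∀ n : N, ∃ t : N, t * n * t⁻¹ = n⁻¹) : finO_All N := fun θ hθ => by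
  have := Fintype.ofFinite G
  have := Fintype.ofFinite N
  obtain ⟨χ, hχ, h0⟩ := exists_irr_over N hθ
  have h1 : fsInd χ = 1 := by rw [← fsInd_finsum]; exact h χ hχ
  obtain ⟨e, he⟩ := (hχ.isCharacter.restrict N).exists_nat_classInner hθ.isCharacter
  obtain ⟨a, ha0, ha⟩ := hχ.exists_nat_one
  obtain ⟨d, hd0, hd⟩ := hθ.exists_nat_one
  have h2 : e * d ≤ a := mul_degree_le_of_classInner (hχ.isCharacter.restrict N) hθ he ha hd
  have h3 : e * a ≤ 2 * d := mul_degree_le_of_classInner (isCharacter_indFun hθ.isCharacter) hχ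
    ((classInner_indFun_eq_res hθ.isCharacter hχ.isCharacter).trans he) (by rw [indFun_one, hN, hd]; simp) ha
  have h4 : e ≠ 0 := by rintro rfl; exact h0 (by simpa using he)
  have h5 : e = 1 := by
    by_contra hne
    have : 2 ≤ e := by omega
    nlinarith
  rw [fsInd_finsum, ← h1]
  refine (fsInd_eq_of_odd N.subtype hχ (fsInd_real hχ (by rw [h1]; exact one_ne_zero)) hθ (fun n => ?_) he
    (h5 ▸ odd_one)).symm
  obtain ⟨t, ht⟩ := hr n
  rw [fs_im_eq_zero_iff hθ.isCharacter, ← ht, hθ.isCharacter.mul_comm, inv_mul_cancel_left]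

section

variable {F : Type u} [Field F] [Finite F] [CharP F 2]

theorem finO_OG (h : OAll.{u}) {V : Type u} [AddCommGroup V] [Module F V] [FiniteDimensional F V]
    {Q : QuadraticForm F V} (hQ : (QuadraticMap.polarBilin Q).Nondegenerate) : finO_All (Cls.OG Q) := by
  have := finite_equiv (E := F) (X := V)
  exact fun χ hχ => (h F V Q hQ).og.indicator hχ

theorem finO_Omega (h : OAll.{u}) (hR : RealThm.{u}) {V : Type u} [AddCommGroup V] [Module F V]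
    [FiniteDimensional F V] {Q : QuadraticForm F V} (hQ : (QuadraticMap.polarBilin Q).Nondegenerate) {m : ℕ}
    (hm : 2 ≤ m) (hV : finrank F V = 4 * m) : finO_All (commutator (Cls.OG Q)) := by
  have := finite_equiv (E := F) (X := V)
  have h2 : (2 : F) = 0 := hyp_two_eq
  have h4 : finrank F V ≠ 4 := by omega
  refine finO_index_two _ (Cls.index_commutator_OG_even hQ h2 (Or.inr h4) (by omega)) (finO_OG h hQ) fun n => ?_
  obtain ⟨t, h1, h3⟩ := hR F V Q hQ n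
  refine ⟨⟨t, ?_⟩, Subtype.ext h1⟩
  rw [Cls.commutator_OG_eq_ker_dickson hQ h2 (Or.inr h4), MonoidHom.mem_ker, h3, hV,
    show 4 * m / 2 = 2 * m by omega, pow_mul, neg_one_sq, one_pow]

end

theorem s4972_of (h : OAll.{u}) {F : Type u} [Field F] [Fintype F] [CharP F 2] (n : ℕ) (_hn : 1 ≤ n) : (∀ χ : Cfsg.IrrCharacter ↥(Cfsg.isometryGroup F (Cfsg.quadFormPlus n F)), (Nat.card ↥(Cfsg.isometryGroup F (Cfsg.quadFormPlus n F)) : ℂ)⁻¹ * ∑ᶠ s : ↥(Cfsg.isometryGroup F (Cfsg.quadFormPlus n F)), (χ : ↥(Cfsg.isometryGroup F (Cfsg.quadFormPlus n F)) → ℂ) (s * s) = 1) ∧ (∀ a b : F, (∀ z₁ z₂ : F, z₁ ^ 2 + a * z₁ * z₂ + b * z₂ ^ 2 = 0 → z₁ = 0 ∧ z₂ = 0) → ∀ χ : Cfsg.IrrCharacter ↥(Cfsg.isometryGroup F (Cfsg.quadFormMinus (n - 1) F a b)), (Nat.card ↥(Cfsg.isometryGroup F (Cfsg.quadFormMinus (n - 1) F a b)) : ℂ)⁻¹ * ∑ᶠ s : ↥(Cfsg.isometryGroup F (Cfsg.quadFormMinus (n - 1) F a b)), (χ : ↥(Cfsg.isometryGroup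 F (Cfsg.quadFormMinus (n - 1) F a b)) → ℂ) (s * s) = 1) :=
  ⟨fun χ => finO_transfer (Cls.isomEquiv (Cls.qfPlus n F)) (finO_OG h Cls.nondeg_qfPlus) χ.1 χ.2,
    fun a b hab χ => finO_transfer (Cls.isomEquiv (Cls.qfMinus (n - 1) F a b))
      (finO_OG h (Cls.nondeg_qfMinus a b hab)) χ.1 χ.2⟩

theorem s4973_of (h : OAll.{u}) (hR : RealThm.{u}) {F : Type u} [Field F] [Fintype F] [CharP F 2] (m : ℕ) (hm : 2 ≤ m) : (∀ χ : Cfsg.IrrCharacter ↥(Cfsg.Omega F (Cfsg.quadFormPlus (2 * m) F)), (Nat.card ↥(Cfsg.Omega F (Cfsg.quadFormPlus (2 * m) F)) : ℂ)⁻¹ * ∑ᶠ s : ↥(Cfsg.Omega F (Cfsg.quadFormPlus (2 * m) F)), (χ : ↥(Cfsg.Omega F (Cfsg.quadFormPlus (2 * m) F)) → ℂ) (s * s) = 1) ∧ (∀ a b : F, (∀ z₁ z₂ : F, z₁ ^ 2 + a * z₁ * z₂ + b * z₂ ^ 2 = 0 → z₁ = 0 ∧ z₂ = 0) → ∀ χ : Cfsg.IrrCharacter ↥(Cfsg.Omega F (Cfsg.quadFormMinus (2 * m - 1) F a b)), (Nat.card ↥(Cfsg.Omega F (Cfsg.quadFormMinus (2 * m -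 1) F a b)) : ℂ)⁻¹ * ∑ᶠ s : ↥(Cfsg.Omega F (Cfsg.quadFormMinus (2 * m - 1) F a b)), (χ : ↥(Cfsg.Omega F (Cfsg.quadFormMinus (2 * m - 1) F a b)) → ℂ) (s * s) = 1) :=
  ⟨fun χ => finO_transfer (Cls.omegaEquiv (Cls.qfPlus (2 * m) F))
      (finO_Omega h hR Cls.nondeg_qfPlus hm (by simp; omega)) χ.1 χ.2,
    fun a b hab χ => finO_transfer (Cls.omegaEquiv (Cls.qfMinus (2 * m - 1) F a b))
      (finO_Omega h hR (Cls.nondeg_qfMinus a b hab) hm (by simp; omega)) χ.1 χ.2⟩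

end CL.TOr
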